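import Cfsg.Agent.Nodes.TypeD

/-!
# The Weyl group of type `D_{n+2}` inside the Weyl group of type `B_{n+2}` (helper549, S4884)

`cs : CoxeterSystem (TypeD.M n) W`, `csB : CoxeterSystem (CoxeterMatrix.B (n + 2)) WB`:
`emb : W →* WB` injective, `range_eq : emb.range = ker det`, index two, `tau` the automorphism of `W` which exchanges
the last two nodes = conjugation by the last generator of `WB`.
-/

set_option autoImplicit false
set_option linter.unusedSectionVars false
set_option linter.unusedVariables false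

namespace Cfsg.Agent.H549.DB

open Cfsg.Agent.Nodes.TypeD

variable {n : ℕ}

/-- the last node -/
def lst (n : ℕ) : Fin (n + 2) := Fin.last (n + 1)

/-- the last but one node -/
def pre (n : ℕ) : Fin (n + 2) := Fin.castSucc (Fin.last n)

/-- exchange of the last two nodes -/
def sw (n : ℕ) : Equiv.Perm (Fin (n + 2)) := Equiv.swap (lst n) (pre n)

theorem val_lst (n : ℕ) : ((lst n : Fin (n + 2)) : ℕ) = n + 1 := rfl
theorem val_pre (n : ℕ) : ((pre n : Fin (n + 2)) : ℕ) = n := rfl

theorem pre_ne (n : ℕ) : pre n ≠ lst n := by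
  rw [Ne, Fin.ext_iff, val_lst, val_pre]
  omega

theorem sw_lst (n : ℕ) : sw n (lst n) = pre n := Equiv.swap_apply_left _ _
theorem sw_pre (n : ℕ) : sw n (pre n) = lst n := Equiv.swap_apply_right _ _
theorem sw_of {i : Fin (n + 2)} (h1 : i ≠ lst n) (h2 : i ≠ pre n) : sw n i = i :=
  Equiv.swap_apply_of_ne_of_ne h1 h2
theorem sw_sw (i : Fin (n + 2)) : sw n (sw n i) = i :=
  congrFun (congrArg DFunLike.coe (Equiv.swap_mul_self (lst n) (pre n))) i

theorem eq_lst_iff (i : Fin (n + 2)) : i = lst n ↔ (i : ℕ) = n + 1 := by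
  rw [Fin.ext_iff, val_lst]

theorem eq_pre_iff (i : Fin (n + 2)) : i = pre n ↔ (i : ℕ) = n := by
  rw [Fin.ext_iff, val_pre]

theorem cases3 (i : Fin (n + 2)) : i = lst n ∨ i = pre n ∨ (i : ℕ) < n := by
  rw [eq_lst_iff, eq_pre_iff]
  have := i.2
  omega

theorem sw_lt {i : Fin (n + 2)} (hi : (i : ℕ) < n) : sw n i = i :=
  sw_of (by rw [Ne, eq_lst_iff]; omega) (by rw [Ne, eq_pre_iff]; omega)

theorem M_apply (i j : Fin (n + 2)) : M n i j = if (i : ℕ) = j then 1 else
    if ((j : ℕ) < n + 1 ∧ (i : ℕ) + 1 = j ∨ (j : ℕ) = n + 1 ∧ (i : ℕ) + 2 = j) ∨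
      ((i : ℕ) < n + 1 ∧ (j : ℕ) + 1 = i ∨ (i : ℕ) = n + 1 ∧ (j : ℕ) + 2 = i) then 3 else 2 :=
  if_congr Fin.ext_iff rfl (if_congr Iff.rfl rfl rfl)

theorem M_sw (i j : Fin (n + 2)) : M n (sw n i) (sw n j) = M n i j := by
  rw [M_apply, M_apply]
  have hi := i.2
  have hj := j.2
  have hl := val_lst n
  have hp := val_pre n
  rcases cases3 i with rfl | rfl | hi' <;> rcases cases3 j with rfl | rfl | hj'
  · rw [sw_lst, if_pos rfl, if_pos rfl]
  · rw [sw_lst, sw_pre]
    exact if_congr (by omega) rfl (if_congr (by omega) rfl rfl)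
  · rw [sw_lst, sw_lt hj']
    exact if_congr (by omega) rfl (if_congr (by omega) rfl rfl)
  · rw [sw_lst, sw_pre]
    exact if_congr (by omega) rfl (if_congr (by omega) rfl rfl)
  · rw [sw_pre, if_pos rfl, if_pos rfl]
  · rw [sw_pre, sw_lt hj']
    exact if_congr (by omega) rfl (if_congr (by omega) rfl rfl)
  · rw [sw_lst, sw_lt hi']
    exact if_congr (by omega) rfl (if_congr (by omega) rfl rfl)
  · rw [sw_pre, sw_lt hi']
    exact if_congr (by omega) rfl (if_congr (by omega) rfl rfl)
  · rw [sw_lt hi', sw_lt hj']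

section tau

variable {W : Type*} [Group W] (cs : CoxeterSystem (M n) W)

/-- the diagram automorphism as a homomorphism -/
noncomputable def tau : W →* W :=
  cs.lift ⟨fun i => cs.simple (sw n i), fun i j => by rw [← M_sw (n := n) i j]; exact cs.simple_mul_simple_pow _ _⟩

theorem tau_simple (i : Fin (n + 2)) : tau cs (cs.simple i) = cs.simple (sw n i) := cs.lift_apply_simple _ i

theorem tau_tau (x : W) : tau cs (tau cs x) = x := by
  have h : (tau cs).comp (tau cs) = MonoidHom.id W := by
    apply cs.ext_simple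
    intro i
    rw [MonoidHom.comp_apply, tau_simple, tau_simple, sw_sw]
    rfl
  exact DFunLike.congr_fun h x

/-- the diagram automorphism -/
noncomputable def tauE : MulAut W :=
  { toFun := tau cs, invFun := tau cs, left_inv := tau_tau cs, right_inv := tau_tau cs,
    map_mul' := map_mul _ }

theorem tauE_apply (x : W) : tauE cs x = tau cs x := rfl

theorem tauE_mul : tauE cs * tauE cs = 1 := by
  ext x
  exact tau_tau cs x

end tau

section B

/-- the Coxeter matrix of type `B_{n+2}` -/
theorem B_apply (i j : Fin (n + 2)) : CoxeterMatrix.B (n + 2) i j = if (i : ℕ) = j then 1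
    else (if (i : ℕ) = n + 1 ∧ (j : ℕ) = n ∨ (j : ℕ) = n + 1 ∧ (i : ℕ) = n then 4
      else (if (j : ℕ) + 1 = i ∨ (i : ℕ) + 1 = j then 3 else 2)) :=
  if_congr Fin.ext_iff rfl (if_congr (by
    show (i : ℕ) = n + 2 - 1 ∧ (j : ℕ) = n + 2 - 2 ∨ (j : ℕ) = n + 2 - 1 ∧ (i : ℕ) = n + 2 - 2 ↔ _
    omega) rfl (if_congr Iff.rfl rfl rfl))

theorem B_eq_M {i j : Fin (n + 2)} (hi : i ≠ lst n) (hj : j ≠ lst n) :
    CoxeterMatrix.B (n + 2) i j = M n i j := by
  rw [Ne, eq_lst_iff] at hi hj
  have := i.2
  have := j.2
  rw [M_apply, B_apply, if_neg (c := (i : ℕ) = n + 1 ∧ (j : ℕ) = n ∨ (j : ℕ) = n + 1 ∧ (i : ℕ) = n) (by omega)]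
  exact if_congr Iff.rfl rfl (if_congr (by omega) rfl rfl)

theorem B_lst_pre (n : ℕ) : CoxeterMatrix.B (n + 2) (pre n) (lst n) = 4 := by
  rw [B_apply, val_lst, val_pre, if_neg (by omega), if_pos (by omega)]

theorem B_lst {i : Fin (n + 2)} (hi : i ≠ lst n) (hi' : i ≠ pre n) :
    CoxeterMatrix.B (n + 2) i (lst n) = 2 := by
  rw [Ne, eq_lst_iff] at hi
  rw [Ne, eq_pre_iff] at hi'
  have := i.2
  rw [B_apply, val_lst, if_neg (by omega), if_neg (by omega), if_neg (by omega)]

theorem M_lst_pre (n : ℕ) : M n (pre n) (lst n) = 2 := by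
  rw [M_apply, val_pre, val_lst, if_neg (by omega), if_neg (by omega)]

theorem M_lst {i : Fin (n + 2)} (hi : i ≠ lst n) (hi' : i ≠ pre n) :
    M n i (lst n) = CoxeterMatrix.B (n + 2) i (pre n) := by
  rw [Ne, eq_lst_iff] at hi
  rw [Ne, eq_pre_iff] at hi'
  have := i.2
  rw [M_apply, B_apply, val_lst, val_pre, if_neg (c := (i : ℕ) = n + 1) (by omega), if_neg (c := (i : ℕ) = n) (by omega),
    if_neg (c := (i : ℕ) = n + 1 ∧ n = n ∨ n = n + 1 ∧ (i : ℕ) = n) (by omega)]
  exact if_congr (by omega) rfl rfl

/-- relations for a family `f` need only be checked on ordered pairs -/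
theorem liftable_of {G : Type*} [Group G] {M : CoxeterMatrix (Fin (n + 2))} (f : Fin (n + 2) → G)
    (h1 : ∀ i j, i ≠ lst n → j ≠ lst n → (f i * f j) ^ M i j = 1)
    (h2 : ∀ i, i ≠ lst n → (f i * f (lst n)) ^ M i (lst n) = 1)
    (h3 : f (lst n) * f (lst n) = 1) : M.IsLiftable f := by
  intro i j
  by_cases hi : i = lst n
  · by_cases hj : j = lst n
    · subst hi; subst hj
      rw [h3, one_pow]
    · subst hi
      have h4 := h2 j hj
      rw [M.symmetric]
      have h5 : f (lst n) * f j = (f j)⁻¹ * (f j * f (lst n)) * f j := by group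
      have h6 : ((f j)⁻¹ * (f j * f (lst n)) * f j) ^ M j (lst n) =
          (f j)⁻¹ * (f j * f (lst n)) ^ M j (lst n) * f j := by
        have := conj_pow (i := M j (lst n)) (a := (f j)⁻¹) (b := f j * f (lst n))
        rw [inv_inv] at this
        exact this
      rw [h5, h6, h4]
      group
  · by_cases hj : j = lst n
    · subst hj
      exact h2 i hi
    · exact h1 i j hi hj

end B

section emb

variable {W : Type*} [Group W] (cs : CoxeterSystem (M n) W)
  {WB : Type*} [Group WB] (csB : CoxeterSystem (CoxeterMatrix.B (n + 2)) WB)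

/-- the images of the generators of `W(D_n)` in `W(B_n)` -/
noncomputable def ef (i : Fin (n + 2)) : WB :=
  if i = lst n then csB.simple (lst n) * csB.simple (pre n) * csB.simple (lst n) else csB.simple i

theorem ef_lst : ef csB (lst n) = csB.simple (lst n) * csB.simple (pre n) * csB.simple (lst n) := if_pos rfl

theorem ef_of {i : Fin (n + 2)} (h : i ≠ lst n) : ef csB i = csB.simple i := if_neg h

theorem comm_lst {i : Fin (n + 2)} (hi : i ≠ lst n) (hi' : i ≠ pre n) :
    csB.simple (lst n) * csB.simple i = csB.simple i * csB.simple (lst n) := by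
  have h1 := csB.simple_mul_simple_pow i (lst n)
  rw [B_lst hi hi', pow_two] at h1
  have h2 := csB.simple_mul_simple_self i
  have h3 := csB.simple_mul_simple_self (lst n)
  have h4 : csB.simple i * (csB.simple i * csB.simple (lst n) * (csB.simple i * csB.simple (lst n))) *
      csB.simple (lst n) = csB.simple i * csB.simple (lst n) := by rw [h1]; group
  rw [← h4]
  calc csB.simple (lst n) * csB.simple i
      = (csB.simple i * csB.simple i) * csB.simple (lst n) * csB.simple i * (csB.simple (lst n) * csB.simple (lst n)) := by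
        rw [h2, h3]; group
    _ = _ := by group

theorem ef_liftable : (M n).IsLiftable (ef csB) := by
  have h3 := csB.simple_mul_simple_self (lst n)
  refine liftable_of _ (fun i j hi hj => ?_) (fun i hi => ?_) ?_
  · rw [ef_of csB hi, ef_of csB hj, ← B_eq_M hi hj]
    exact csB.simple_mul_simple_pow i j
  · rw [ef_of csB hi, ef_lst]
    by_cases hi' : i = pre n
    · subst hi'
      rw [M_lst_pre]
      have h4 := csB.simple_mul_simple_pow (pre n) (lst n)
      rw [B_lst_pre n] at h4
      rw [← h4]
      simp only [pow_succ, pow_zero, one_mul, mul_assoc]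
    · rw [M_lst hi hi']
      have h5 : csB.simple i * (csB.simple (lst n) * csB.simple (pre n) * csB.simple (lst n)) =
          csB.simple (lst n) * (csB.simple i * csB.simple (pre n)) * (csB.simple (lst n))⁻¹ := by
        rw [csB.inv_simple, ← mul_assoc, ← mul_assoc, ← comm_lst csB hi hi']
        group
      rw [h5, conj_pow, csB.simple_mul_simple_pow, mul_one, mul_inv_cancel]
  · rw [ef_lst]
    have h2 := csB.simple_mul_simple_self (pre n)
    calc csB.simple (lst n) * csB.simple (pre n) * csB.simple (lst n) *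
          (csB.simple (lst n) * csB.simple (pre n) * csB.simple (lst n))
        = csB.simple (lst n) * csB.simple (pre n) * (csB.simple (lst n) *
          csB.simple (lst n)) * csB.simple (pre n) * csB.simple (lst n) := by group
      _ = csB.simple (lst n) * (csB.simple (pre n) * csB.simple (pre n)) * csB.simple (lst n) := by
        rw [h3]; group
      _ = 1 := by rw [h2, mul_one, h3]

/-- `W(D_n) → W(B_n)` -/
noncomputable def emb : W →* WB := cs.lift ⟨ef csB, ef_liftable csB⟩

theorem emb_simple (i : Fin (n + 2)) : emb cs csB (cs.simple i) = ef csB i := cs.lift_apply_simple _ i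

/-- the semidirect product with the diagram automorphism -/
abbrev SD : Type _ := W ⋊[(Subgroup.zpowers (tauE cs)).subtype] (Subgroup.zpowers (tauE cs))

/-- the generator of the complement -/
noncomputable def tt : SD cs := SemidirectProduct.inr ⟨tauE cs, Subgroup.mem_zpowers _⟩

theorem tt_mul : tt cs * tt cs = 1 := by
  unfold tt
  rw [← map_mul]
  have : (⟨tauE cs, Subgroup.mem_zpowers _⟩ : Subgroup.zpowers (tauE cs)) * ⟨tauE cs, Subgroup.mem_zpowers _⟩ = 1 :=
    Subtype.ext (tauE_mul cs)
  rw [this, map_one]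

theorem tt_conj (x : W) : tt cs * SemidirectProduct.inl x * (tt cs) = SemidirectProduct.inl (tau cs x) := by
  have h1 : (tt cs)⁻¹ = tt cs := inv_eq_of_mul_eq_one_left (tt_mul cs)
  nth_rewrite 2 [← h1]
  unfold tt
  rw [← map_inv]
  exact (SemidirectProduct.inl_aut _ x).symm

/-- the images of the generators of `W(B_n)` in the semidirect product -/
noncomputable def hf (i : Fin (n + 2)) : SD cs := if i = lst n then tt cs else SemidirectProduct.inl (cs.simple i)

theorem hf_liftable : (CoxeterMatrix.B (n + 2)).IsLiftable (hf cs) := by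
  refine liftable_of _ (fun i j hi hj => ?_) (fun i hi => ?_) ?_
  · rw [hf, hf, if_neg hi, if_neg hj, ← map_mul, ← map_pow, B_eq_M hi hj, cs.simple_mul_simple_pow, map_one]
  · rw [hf, hf, if_neg hi, if_pos rfl]
    have h1 : (SemidirectProduct.inl (cs.simple i) * tt cs) * (SemidirectProduct.inl (cs.simple i) * tt cs) =
        SemidirectProduct.inl (cs.simple i * cs.simple (sw n i)) := by
      rw [map_mul, ← tau_simple, ← tt_conj]
      group
    by_cases hi' : i = pre n
    · subst hi'
      have h2 := cs.simple_mul_simple_pow (pre n) (lst n)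
      rw [M_lst_pre n] at h2
      rw [B_lst_pre, show 4 = 2 * 2 from rfl, pow_mul, pow_two (SemidirectProduct.inl _ * _), h1, sw_pre, ← map_pow,
        h2, map_one]
    · rw [B_lst hi hi', pow_two, h1, sw_of hi hi', cs.simple_mul_simple_self, map_one]
  · rw [hf, if_pos rfl, tt_mul]

/-- `W(B_n) → W(D_n) : 2` -/
noncomputable def hm : WB →* SD cs := csB.lift ⟨hf cs, hf_liftable cs⟩

theorem hm_simple (i : Fin (n + 2)) : hm cs csB (csB.simple i) = hf cs i := csB.lift_apply_simple _ i

theorem hm_emb (x : W) : hm cs csB (emb cs csB x) = SemidirectProduct.inl x := by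
  have h : (hm cs csB).comp (emb cs csB) = SemidirectProduct.inl := by
    apply cs.ext_simple
    intro i
    rw [MonoidHom.comp_apply, emb_simple]
    by_cases hi : i = lst n
    · subst hi
      rw [ef_lst, map_mul, map_mul, hm_simple, hm_simple, hf, if_pos rfl, hf, if_neg (pre_ne n), tt_conj, tau_simple,
        sw_pre]
    · rw [ef_of csB hi, hm_simple, hf, if_neg hi]
  exact DFunLike.congr_fun h x

theorem emb_injective : Function.Injective (emb cs csB) := by
  intro x y h
  have h1 := congrArg (hm cs csB) h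
  rw [hm_emb, hm_emb] at h1
  exact SemidirectProduct.inl_injective h1

theorem emb_tau (x : W) : emb cs csB (tau cs x) =
    csB.simple (lst n) * emb cs csB x * (csB.simple (lst n))⁻¹ := by
  have h : (emb cs csB).comp (tau cs) =
      (MulAut.conj (csB.simple (lst n))).toMonoidHom.comp (emb cs csB) := by
    apply cs.ext_simple
    intro i
    rw [MonoidHom.comp_apply, MonoidHom.comp_apply, tau_simple, emb_simple, emb_simple]
    show _ = csB.simple (lst n) * _ * (csB.simple (lst n))⁻¹
    rw [csB.inv_simple]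
    have h3 := csB.simple_mul_simple_self (lst n)
    by_cases hi : i = lst n
    · subst hi
      rw [sw_lst, ef_of csB (pre_ne n), ef_lst]
      calc csB.simple (pre n) = (csB.simple (lst n) * csB.simple (lst n)) * csB.simple (pre n) *
            (csB.simple (lst n) * csB.simple (lst n)) := by rw [h3]; group
        _ = _ := by group
    · by_cases hi' : i = pre n
      · subst hi'
        rw [sw_pre, ef_lst, ef_of csB (pre_ne n)]
      · rw [sw_of hi hi', ef_of csB hi, comm_lst csB hi hi', mul_assoc, h3, mul_one]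
  exact DFunLike.congr_fun h x

/-- the sign character with kernel `W(D_n)` -/
noncomputable def det : WB →* ℤˣ := csB.lift ⟨fun i => if i = lst n then -1 else 1, by
  refine liftable_of _ (fun i j hi hj => ?_) (fun i hi => ?_) ?_
  · simp only [if_neg hi, if_neg hj, mul_one, one_pow]
  · simp only [if_neg hi, if_true, one_mul]
    by_cases hi' : i = pre n
    · subst hi'
      rw [B_lst_pre]
      rfl
    · rw [B_lst hi hi']
      rfl
  · simp⟩

theorem det_simple (i : Fin (n + 2)) : det csB (csB.simple i) = if i = lst n then -1 else 1 := csB.lift_apply_simple _ i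

theorem det_lst : det csB (csB.simple (lst n)) = -1 := by rw [det_simple, if_pos rfl]

theorem det_emb (x : W) : det csB (emb cs csB x) = 1 := by
  have h : (det csB).comp (emb cs csB) = 1 := by
    apply cs.ext_simple
    intro i
    rw [MonoidHom.comp_apply, emb_simple, MonoidHom.one_apply]
    by_cases hi : i = lst n
    · subst hi
      rw [ef_lst, map_mul, map_mul, det_simple, det_simple, if_pos rfl, if_neg (pre_ne n)]
      decide
    · rw [ef_of csB hi, det_simple, if_neg hi]
  exact DFunLike.congr_fun h x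

theorem cover (w : WB) : ∃ x : W, w = emb cs csB x ∨ w = csB.simple (lst n) * emb cs csB x := by
  refine csB.simple_induction_left
    (p := fun w => ∃ x : W, w = emb cs csB x ∨ w = csB.simple (lst n) * emb cs csB x) w
    ⟨1, Or.inl (map_one _).symm⟩ ?_
  rintro w i ⟨x, hx | hx⟩
  · by_cases hi : i = lst n
    · subst hi
      exact ⟨x, Or.inr (by rw [hx])⟩
    · refine ⟨cs.simple i * x, Or.inl ?_⟩
      rw [map_mul, emb_simple, ef_of csB hi, hx]
  · by_cases hi : i = lst n
    · subst hi
      refine ⟨x, Or.inl ?_⟩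
      rw [hx, ← mul_assoc, csB.simple_mul_simple_self, one_mul]
    · refine ⟨tau cs (cs.simple i) * x, Or.inr ?_⟩
      rw [map_mul, emb_tau, emb_simple, ef_of csB hi, hx]
      have h3 := csB.simple_mul_simple_self (lst n)
      rw [csB.inv_simple]
      calc csB.simple i * (csB.simple (lst n) * emb cs csB x)
          = (csB.simple (lst n) * csB.simple (lst n)) * csB.simple i * (csB.simple (lst n) * emb cs csB x) := by
            rw [h3]; group
        _ = _ := by group

theorem range_eq : (emb cs csB).range = (det csB).ker := by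
  ext w
  rw [MonoidHom.mem_range, MonoidHom.mem_ker]
  constructor
  · rintro ⟨x, rfl⟩
    exact det_emb cs csB x
  · intro h
    obtain ⟨x, hx | hx⟩ := cover cs csB w
    · exact ⟨x, hx.symm⟩
    · rw [hx, map_mul, det_lst, det_emb] at h
      exact absurd h (by decide)

theorem lst_notMem : csB.simple (lst n) ∉ (emb cs csB).range := by
  rw [range_eq, MonoidHom.mem_ker, det_lst]
  decide

theorem index_two : (emb cs csB).range.index = 2 := by
  rw [range_eq, Subgroup.index_ker]
  have h : (det csB).range = ⊤ := by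
    rw [eq_top_iff]
    intro u _
    rcases Int.units_eq_one_or u with rfl | rfl
    · exact ⟨1, map_one _⟩
    · exact ⟨_, det_lst csB⟩
  rw [h, Subgroup.card_top, Nat.card_eq_fintype_card]
  rfl

include cs csB in
theorem finite_WB [Finite W] : Finite WB := by
  have h1 : (emb cs csB).range.index ≠ 0 := by rw [index_two]; norm_num
  have h2 : Finite (emb cs csB).range := Finite.of_surjective (emb cs csB).rangeRestrict
    (emb cs csB).rangeRestrict_surjective
  have h3 : Nat.card WB ≠ 0 := by
    rw [← Subgroup.card_mul_index (emb cs csB).range]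
    exact mul_ne_zero Nat.card_pos.ne' h1
  exact Nat.finite_of_card_ne_zero h3

/-- parabolic subgroups without the last node -/
theorem map_parabolic {J : Set (Fin (n + 2))} (hJ : lst n ∉ J) :
    (Subgroup.closure (cs.simple '' J)).map (emb cs csB) = Subgroup.closure (csB.simple '' J) := by
  rw [MonoidHom.map_closure]
  congr 1
  ext x
  constructor
  · rintro ⟨_, ⟨i, hi, rfl⟩, rfl⟩
    refine ⟨i, hi, ?_⟩
    rw [emb_simple, ef_of csB (fun h => hJ (h ▸ hi))]
  · rintro ⟨i, hi, rfl⟩
    refine ⟨_, ⟨i, hi, rfl⟩, ?_⟩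
    rw [emb_simple, ef_of csB (fun h => hJ (h ▸ hi))]

theorem map_tau (J : Set (Fin (n + 2))) :
    (Subgroup.closure (cs.simple '' J)).map (tau cs) = Subgroup.closure (cs.simple '' (sw n '' J)) := by
  rw [MonoidHom.map_closure]
  congr 1
  ext x
  constructor
  · rintro ⟨_, ⟨i, hi, rfl⟩, rfl⟩
    exact ⟨_, ⟨i, hi, rfl⟩, (tau_simple cs i).symm⟩
  · rintro ⟨_, ⟨i, hi, rfl⟩, rfl⟩
    exact ⟨_, ⟨i, hi, rfl⟩, tau_simple cs i⟩

end emb

end Cfsg.Agent.H549.DB
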